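import Cfsg.Agent.Lib.Helper11.SymSylow

/-!
Sylow `2`-subgroups of the alternating groups of degree at least `6` are self-normalizing.
-/

set_option autoImplicit false

namespace Cfsg.Agent.Lib.Helper11.SymSyl

open Equiv Equiv.Perm Subgroup

section

variable {Ω : Type*} [DecidableEq Ω] [Fintype Ω]

theorem exists_avoid {τ : Perm Ω} (hτ : IsMatching τ) (h6 : 6 ≤ Fintype.card Ω) (p q r s : Ω) :
    ∃ d, d ≠ p ∧ d ≠ q ∧ d ≠ r ∧ d ≠ s ∧ τ d ≠ d := by
  have hF : (Finset.univ.filter (fun z => τ z = z)).card ≤ 1 := by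
    rw [Finset.card_le_one]
    intro x hx y hy
    exact hτ.fix _ _ (Finset.mem_filter.mp hx).2 (Finset.mem_filter.mp hy).2
  have h4 : ({p, q, r, s} : Finset Ω).card ≤ 4 := Finset.card_le_four
  have h5 : (({p, q, r, s} : Finset Ω) ∪ Finset.univ.filter (fun z => τ z = z)).card
      < (Finset.univ : Finset Ω).card := by
    rw [Finset.card_univ]
    have := Finset.card_union_le ({p, q, r, s} : Finset Ω) (Finset.univ.filter (fun z => τ z = z))
    omega
  obtain ⟨d, -, hd⟩ := Finset.exists_mem_notMem_of_card_lt_card h5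
  simp only [Finset.mem_union, Finset.mem_insert, Finset.mem_singleton, Finset.mem_filter,
    Finset.mem_univ, true_and, not_or] at hd
  exact ⟨d, hd.1.1, hd.1.2.1, hd.1.2.2.1, hd.1.2.2.2, hd.2⟩

theorem matching_core {S : Subgroup (Perm Ω)} (hS : IsPGroup 2 S) (h6 : 6 ≤ Fintype.card Ω)
    {τ τ' : Perm Ω} (hτ : IsMatching τ) (hτ' : IsMatching τ')
    (h : ∀ x y, τ x ≠ x → τ y ≠ y → swap x (τ x) * swap y (τ y) ∈ S)
    (h' : ∀ x y, τ' x ≠ x → τ' y ≠ y → swap x (τ' x) * swap y (τ' y) ∈ S)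
    (a : Ω) (h1 : τ a ≠ a) (h2 : τ' a ≠ a) (h3 : τ a ≠ τ' a) : False := by
  obtain ⟨d, da, db, dc, dtc, dfix⟩ := exists_avoid hτ h6 a (τ a) (τ' a) (τ (τ' a))
  obtain ⟨e, ea, eb, ec, etb, efix⟩ := exists_avoid hτ' h6 a (τ a) (τ' a) (τ' (τ a))
  have tda : τ d ≠ a := fun hh => db (by rw [← hh, hτ.sq])
  have tdb : τ d ≠ τ a := fun hh => da (τ.injective hh)
  have tdc : τ d ≠ τ' a := fun hh => dtc (by rw [← hh, hτ.sq])
  have tea : τ' e ≠ a := fun hh => ec (by rw [← hh, hτ'.sq])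
  have tec : τ' e ≠ τ' a := fun hh => ea (τ'.injective hh)
  have teb : τ' e ≠ τ a := fun hh => etb (by rw [← hh, hτ'.sq])
  set g : Perm Ω := (swap a (τ a) * swap d (τ d)) * (swap a (τ' a) * swap e (τ' e)) with hg
  have hgS : g ∈ S := S.mul_mem (h a d h1 dfix) (h' a e h2 efix)
  have ga : g a = τ' a := by
    rw [hg]
    simp only [Perm.mul_apply]
    rw [swap_apply_of_ne_of_ne (Ne.symm ea) (Ne.symm tea), swap_apply_left,
      swap_apply_of_ne_of_ne (Ne.symm dc) (Ne.symm tdc), swap_apply_of_ne_of_ne h2 (Ne.symm h3)]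
  have gc : g (τ' a) = τ a := by
    rw [hg]
    simp only [Perm.mul_apply]
    rw [swap_apply_of_ne_of_ne (Ne.symm ec) (Ne.symm tec), swap_apply_right,
      swap_apply_of_ne_of_ne (Ne.symm da) (Ne.symm tda), swap_apply_left]
  have gb : g (τ a) = a := by
    rw [hg]
    simp only [Perm.mul_apply]
    rw [swap_apply_of_ne_of_ne (Ne.symm eb) (Ne.symm teb), swap_apply_of_ne_of_ne h1 h3,
      swap_apply_of_ne_of_ne (Ne.symm db) (Ne.symm tdb), swap_apply_right]
  obtain ⟨k, hk⟩ := hS ⟨g, hgS⟩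
  have hk' : g ^ 2 ^ k = 1 := by
    have := congrArg Subtype.val hk
    simpa using this
  have : Fact (Nat.Prime 3) := ⟨Nat.prime_three⟩
  have hp3 : Function.IsPeriodicPt g 3 a := by
    show g (g (g a)) = a
    rw [ga, gc, gb]
  have hmin : Function.minimalPeriod g a = 3 :=
    Function.minimalPeriod_eq_prime hp3 (by
      intro hf
      have : g a = a := hf
      rw [ga] at this
      exact h2 this)
  have hpk : Function.IsPeriodicPt g (2 ^ k) a := by
    show g^[2 ^ k] a = a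
    rw [← Perm.coe_pow, hk', Perm.one_apply]
  have := hpk.minimalPeriod_dvd
  rw [hmin] at this
  have := Nat.Prime.dvd_of_dvd_pow Nat.prime_three this
  omega

theorem matching_unique {S : Subgroup (Perm Ω)} (hS : IsPGroup 2 S) (h6 : 6 ≤ Fintype.card Ω)
    {τ τ' : Perm Ω} (hτ : IsMatching τ) (hτ' : IsMatching τ')
    (h : ∀ x y, τ x ≠ x → τ y ≠ y → swap x (τ x) * swap y (τ y) ∈ S)
    (h' : ∀ x y, τ' x ≠ x → τ' y ≠ y → swap x (τ' x) * swap y (τ' y) ∈ S) : τ = τ' := by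
  by_contra hne
  have : ∃ a, τ a ≠ τ' a := by
    by_contra hall
    push Not at hall
    exact hne (Equiv.ext hall)
  obtain ⟨a, ha⟩ := this
  by_cases h1 : τ a = a
  · have hc : τ' a ≠ a := fun hh => ha (h1.trans hh.symm)
    refine matching_core hS h6 hτ hτ' h h' (τ' a) ?_ ?_ ?_
    · intro hh; exact hc (hτ.fix _ _ hh h1)
    · rw [hτ'.sq]; exact Ne.symm hc
    · rw [hτ'.sq]
      intro hh
      have := hτ.sq (τ' a)
      rw [hh, h1] at this
      exact hc this.symm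
  by_cases h2 : τ' a = a
  · refine matching_core hS h6 hτ hτ' h h' (τ a) ?_ ?_ ?_
    · rw [hτ.sq]; exact Ne.symm h1
    · intro hh; exact h1 (hτ'.fix _ _ hh h2)
    · rw [hτ.sq]
      intro hh
      have := hτ'.sq (τ a)
      rw [← hh, h2] at this
      exact h1 this.symm
  · exact matching_core hS h6 hτ hτ' h h' a h1 h2 ha

end

theorem alt_normalizer_le (n : ℕ) (h6 : 6 ≤ n) (S : Sylow 2 (alternatingGroup (Fin n))) :
    normalizer ((S : Subgroup (alternatingGroup (Fin n))) : Set (alternatingGroup (Fin n))) ≤ S := by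
  intro x hx
  set S0 : Subgroup (Perm (Fin n)) := (S : Subgroup (alternatingGroup (Fin n))).map (alternatingGroup (Fin n)).subtype with hS0
  have hS0p : IsPGroup 2 S0 := S.2.map _
  have hcard : 6 ≤ Fintype.card (Fin n) := by rw [Fintype.card_fin]; exact h6
  -- Sylow subgroups of the symmetric group above `S0` meet the alternating group in `S0`
  have hmeet : ∀ T : Sylow 2 (Perm (Fin n)), S0 ≤ T → ∀ u ∈ T, sign u = 1 → u ∈ S0 := by
    intro T hT u hu hs
    have h1 : IsPGroup 2 ((T : Subgroup (Perm (Fin n))).subgroupOf (alternatingGroup (Fin n))) := T.2.comap_subtype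
    have h2 : (S : Subgroup (alternatingGroup (Fin n))) ≤ (T : Subgroup (Perm (Fin n))).subgroupOf (alternatingGroup (Fin n)) := by
      intro s hs
      exact mem_subgroupOf.mpr (hT ⟨s, hs, rfl⟩)
    have h3 := S.is_maximal' h1 h2
    have h4 : (⟨u, mem_alternatingGroup.mpr hs⟩ : (alternatingGroup (Fin n))) ∈
        (T : Subgroup (Perm (Fin n))).subgroupOf (alternatingGroup (Fin n)) := mem_subgroupOf.mpr hu
    rw [h3] at h4
    exact ⟨_, h4, rfl⟩
  have hpair : ∀ T : Sylow 2 (Perm (Fin n)), S0 ≤ T → ∀ τ : Perm (Fin n),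
      (∀ σ : Perm (Fin n), (∀ x, σ x = x ∨ σ x = τ x) → σ ∈ T) → (∀ x, τ (τ x) = x) →
      ∀ x y, τ x ≠ x → τ y ≠ y → swap x (τ x) * swap y (τ y) ∈ S0 := by
    intro T hT τ hE hsq x y hx hy
    apply hmeet T hT
    · exact Subgroup.mul_mem _ (hE _ (swap_pairs τ hsq x)) (hE _ (swap_pairs τ hsq y))
    · rw [map_mul, sign_swap (Ne.symm hx), sign_swap (Ne.symm hy)]; rfl
  obtain ⟨T, hT⟩ := hS0p.exists_le_sylow
  have hT2 : S0 ≤ ((x : Perm (Fin n)) • T : Sylow 2 (Perm (Fin n))) := by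
    rintro _ ⟨s, hs, rfl⟩
    show _ ∈ (((x : Perm (Fin n)) • T : Sylow 2 (Perm (Fin n))) : Subgroup (Perm (Fin n)))
    rw [Sylow.coe_subgroup_smul, Subgroup.mem_pointwise_smul_iff_inv_smul_mem]
    have h1 : x⁻¹ * s * x⁻¹⁻¹ ∈ (S : Subgroup (alternatingGroup (Fin n))) :=
      (mem_normalizer_iff.mp (Subgroup.inv_mem _ hx) s).mp hs
    have h2 : (alternatingGroup (Fin n)).subtype (x⁻¹ * s * x⁻¹⁻¹) ∈ (T : Subgroup (Perm (Fin n))) := hT ⟨_, h1, rfl⟩
    simpa [MulAut.smul_def, MulAut.conj_inv_apply] using h2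
  obtain ⟨τ, hτ, hE⟩ := exists_matching_le T
  obtain ⟨τ', hτ', hE'⟩ := exists_matching_le ((x : Perm (Fin n)) • T)
  have heq : τ = τ' := matching_unique hS0p hcard hτ hτ' (hpair T hT τ hE hτ.sq)
    (hpair _ hT2 τ' hE' hτ'.sq)
  subst heq
  have : NeZero n := ⟨by omega⟩
  obtain ⟨a, -, -, -, -, ha⟩ := exists_avoid hτ hcard (0 : Fin n) 0 0 0
  have hle : (T : Subgroup (Perm (Fin n))) ≤
      (((x : Perm (Fin n)) • T : Sylow 2 (Perm (Fin n))) : Subgroup (Perm (Fin n))) := by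
    intro u hu
    rcases Int.units_eq_one_or (sign u) with hs | hs
    · exact hT2 (hmeet T hT u hu hs)
    · have h1 : u * swap a (τ a) ∈ S0 := by
        apply hmeet T hT
        · exact Subgroup.mul_mem _ hu (hE _ (swap_pairs τ hτ.sq a))
        · rw [map_mul, hs, sign_swap (Ne.symm ha)]; rfl
      have h2 : u = (u * swap a (τ a)) * swap a (τ a) := by
        rw [mul_assoc, swap_mul_self, mul_one]
      rw [h2]
      exact Subgroup.mul_mem _ (hT2 h1) (hE' _ (swap_pairs τ hτ.sq a))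
  have h3 := T.is_maximal' ((x : Perm (Fin n)) • T : Sylow 2 (Perm (Fin n))).2 hle
  have h4 : (x : Perm (Fin n)) • T = T := Sylow.ext h3
  have h5 := normalizer_sylow_le n T (Sylow.smul_eq_iff_mem_normalizer.mp h4)
  obtain ⟨s, hs, hsx⟩ := hmeet T hT _ h5 (mem_alternatingGroup.mp x.2)
  have : s = x := Subtype.ext hsx
  rw [← this]
  exact hs

end Cfsg.Agent.Lib.Helper11.SymSyl
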