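import Cfsg.Agent.Lib.Helper30.BG96Ctx
import Cfsg.Agent.Lib.Helper11.AxB

/-!
Rung R3 of the B-G 9.6 ladder: a characteristic subgroup `Y` of a noncyclic `q`-group `V`
(`q` odd) containing an elementary abelian subgroup of order `q ^ 2` such that every element of `Y`
is centralized by a subgroup of index at most `q` of every elementary abelian subgroup of `V`.
-/

set_option autoImplicit false
set_option linter.style.haveILetI false

namespace Cfsg.Agent.Lib.Helper11

open Subgroup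
open scoped commutatorElement

universe u

variable {G : Type u} [Group G]

/-- the "second centre" of `V` in the ambient group. -/
def secondCentre (V : Subgroup G) : Subgroup G where
  carrier := {t | t ∈ V ∧ ∀ v ∈ V, ⁅t, v⁆ ∈ V ⊓ centralizer (V : Set G)}
  one_mem' := ⟨V.one_mem, fun v _ => by
    rw [commutatorElement_one_left]; exact Subgroup.one_mem _⟩
  mul_mem' := by
    rintro a b ⟨ha, ha'⟩ ⟨hb, hb'⟩
    refine ⟨V.mul_mem ha hb, fun v hv => ?_⟩
    have h1 : ⁅a * b, v⁆ = a * ⁅b, v⁆ * a⁻¹ * ⁅a, v⁆ := by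
      simp only [commutatorElement_def]; group
    have h2 : a * ⁅b, v⁆ * a⁻¹ = ⁅b, v⁆ := by
      have := (mem_centralizer_iff.mp (hb' v hv).2) a ha
      rw [this, mul_inv_cancel_right]
    rw [h1, h2]
    exact Subgroup.mul_mem _ (hb' v hv) (ha' v hv)
  inv_mem' := by
    rintro a ⟨ha, ha'⟩
    refine ⟨V.inv_mem ha, fun v hv => ?_⟩
    have h1 : ⁅a⁻¹, v⁆ = a⁻¹ * (⁅a, v⁆)⁻¹ * a := by
      simp only [commutatorElement_def]; group
    have h2 : a⁻¹ * (⁅a, v⁆)⁻¹ * a = (⁅a, v⁆)⁻¹ := by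
      have := (mem_centralizer_iff.mp (Subgroup.inv_mem _ (ha' v hv)).2) a⁻¹ (V.inv_mem ha)
      rw [this, inv_mul_cancel_right]
    rw [h1, h2]
    exact Subgroup.inv_mem _ (ha' v hv)

theorem mem_secondCentre {V : Subgroup G} {t : G} :
    t ∈ secondCentre V ↔ t ∈ V ∧ ∀ v ∈ V, ⁅t, v⁆ ∈ V ⊓ centralizer (V : Set G) := Iff.rfl

theorem normalizer_le_normalizer_inf_centralizer (V : Subgroup G) :
    normalizer (V : Set G) ≤ normalizer ((V ⊓ centralizer (V : Set G) : Subgroup G) : Set G) := by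
  have key : ∀ g ∈ normalizer (V : Set G), ∀ z ∈ V ⊓ centralizer (V : Set G),
      g * z * g⁻¹ ∈ V ⊓ centralizer (V : Set G) := by
    intro g hg z hz
    refine ⟨(mem_normalizer_iff.mp hg z).mp hz.1, ?_⟩
    refine mem_centralizer_iff.mpr ?_
    intro v hv
    have hv' : g⁻¹ * v * g ∈ V := by
      have := (mem_normalizer_iff.mp (Subgroup.inv_mem _ hg) v).mp hv
      simpa using this
    have := (mem_centralizer_iff.mp hz.2) _ hv'
    calc v * (g * z * g⁻¹) = g * ((g⁻¹ * v * g) * z) * g⁻¹ := by group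
      _ = g * (z * (g⁻¹ * v * g)) * g⁻¹ := by rw [this]
      _ = g * z * g⁻¹ * v := by group
  intro g hg
  rw [mem_normalizer_iff]
  intro z
  refine ⟨key g hg z, fun h => ?_⟩
  have := key g⁻¹ (Subgroup.inv_mem _ hg) _ h
  simpa [mul_assoc] using this

theorem normalizer_le_normalizer_secondCentre (V : Subgroup G) :
    normalizer (V : Set G) ≤ normalizer ((secondCentre V : Subgroup G) : Set G) := by
  have key : ∀ g ∈ normalizer (V : Set G), ∀ t ∈ secondCentre V,
      g * t * g⁻¹ ∈ secondCentre V := by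
    intro g hg t ht
    refine ⟨(mem_normalizer_iff.mp hg t).mp ht.1, fun v hv => ?_⟩
    have hv' : g⁻¹ * v * g ∈ V := by
      have := (mem_normalizer_iff.mp (Subgroup.inv_mem _ hg) v).mp hv
      simpa using this
    have h1 : ⁅g * t * g⁻¹, v⁆ = g * ⁅t, g⁻¹ * v * g⁆ * g⁻¹ := by
      simp only [commutatorElement_def]; group
    rw [h1]
    exact (mem_normalizer_iff.mp (normalizer_le_normalizer_inf_centralizer V hg) _).mp
      (ht.2 _ hv')
  intro g hg
  rw [mem_normalizer_iff]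
  intro z
  refine ⟨key g hg z, fun h => ?_⟩
  have := key g⁻¹ (Subgroup.inv_mem _ hg) _ h
  simpa [mul_assoc] using this

theorem card_le_of_secondCentre [Finite G] {q : ℕ} [Fact q.Prime] {V : Subgroup G}
    (hcyc : IsCyclic (V ⊓ centralizer (V : Set G) : Subgroup G))
    {B : Subgroup G} (hBV : B ≤ V) (hB : Cfsg.IsElementaryAbelian q B) {w : G}
    (hw : w ∈ secondCentre V) :
    Nat.card B ≤ q * Nat.card (B ⊓ centralizer ({w} : Set G) : Subgroup G) := by
  classical
  set Z : Subgroup G := V ⊓ centralizer (V : Set G) with hZ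
  let φ : ↥B →* ↥Z := MonoidHom.mk' (fun b => ⟨⁅w, (b : G)⁆, hw.2 _ (hBV b.2)⟩) (by
    intro a b
    apply Subtype.ext
    show ⁅w, (a : G) * (b : G)⁆ = ⁅w, (a : G)⁆ * ⁅w, (b : G)⁆
    have h1 : ⁅w, (a : G) * (b : G)⁆ = ⁅w, (a : G)⁆ * ((a : G) * ⁅w, (b : G)⁆ * (a : G)⁻¹) := by
      simp only [commutatorElement_def]; group
    have h2 : (a : G) * ⁅w, (b : G)⁆ * (a : G)⁻¹ = ⁅w, (b : G)⁆ := by
      have := (mem_centralizer_iff.mp (hw.2 _ (hBV b.2)).2) a (hBV a.2)
      rw [this, mul_inv_cancel_right]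
    rw [h1, h2])
  have hker : φ.ker = (B ⊓ centralizer ({w} : Set G) : Subgroup G).subgroupOf B := by
    ext b
    rw [MonoidHom.mem_ker, mem_subgroupOf, mem_inf, mem_centralizer_singleton_iff]
    constructor
    · intro h
      have h' : ⁅w, (b : G)⁆ = 1 := congrArg Subtype.val h
      rw [commutatorElement_eq_one_iff_mul_comm] at h'
      exact ⟨b.2, h'.symm⟩
    · intro h
      apply Subtype.ext
      show ⁅w, (b : G)⁆ = 1
      rw [commutatorElement_eq_one_iff_mul_comm]
      exact h.2.symm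
  have hkc : Nat.card φ.ker = Nat.card (B ⊓ centralizer ({w} : Set G) : Subgroup G) := by
    rw [hker]
    exact Nat.card_congr (subgroupOfEquivOfLe inf_le_left).toEquiv
  have hrange : Nat.card φ.range ≤ q := by
    haveI : Fintype ↥Z := Fintype.ofFinite _
    have h1 := IsCyclic.card_pow_eq_one_le (α := ↥Z) (n := q) (Fact.out : q.Prime).pos
    refine le_trans ?_ h1
    rw [← SetLike.coe_sort_coe, Nat.card_coe_set_eq, ← Set.ncard_coe_finset]
    apply Set.ncard_le_ncard _ (Set.toFinite _)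
    rintro z ⟨b, rfl⟩
    simp only [Finset.coe_filter, Finset.mem_univ, true_and, Set.mem_ofPred_eq]
    rw [← map_pow]
    have : b ^ q = 1 := Subtype.ext (by simpa using hB.2 b b.2)
    rw [this, map_one]
  have h3 : Nat.card φ.ker * φ.ker.index = Nat.card ↥B := Subgroup.card_mul_index _
  rw [Subgroup.index_ker] at h3
  rw [← h3, hkc, mul_comm]
  exact Nat.mul_le_mul_right _ hrange

theorem exists_char_good [Finite G] {q : ℕ} [Fact q.Prime] (hq2 : q ≠ 2) {V : Subgroup G}
    (hV : IsPGroup q V) (hnc : ¬ IsCyclic V) :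
    ∃ Y D : Subgroup G, D ≤ Y ∧ Y ≤ V ∧ normalizer (V : Set G) ≤ normalizer (Y : Set G) ∧
      Cfsg.IsElementaryAbelian q D ∧ Nat.card D = q ^ 2 ∧
      ∀ B : Subgroup G, B ≤ V → Cfsg.IsElementaryAbelian q B → ∀ w ∈ Y,
        Nat.card B ≤ q * Nat.card (B ⊓ centralizer ({w} : Set G) : Subgroup G) := by
  have hq : q.Prime := Fact.out
  by_cases hcyc : IsCyclic (V ⊓ centralizer (V : Set G) : Subgroup G)
  · obtain ⟨D, hDV, hVD, hD, hDc⟩ := Cfsg.Agent.Lib.Helper58.BG9.exists_normal_sq hq2 hV hnc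
    refine ⟨secondCentre V, D, ?_, fun t ht => ht.1, normalizer_le_normalizer_secondCentre V,
      hD, hDc, fun B hBV hB w hw => card_le_of_secondCentre hcyc hBV hB hw⟩
    have hDp : IsPGroup q D := hV.to_le hDV
    have hD1 : D ≠ ⊥ := by
      rintro rfl
      rw [Subgroup.card_bot] at hDc
      have := hq.one_lt
      nlinarith
    have hlt : ⁅D, V⁆ < D := commutator_lt_of_isPGroup D V hDp hV hVD hD1
    have hle : ⁅D, V⁆ ≤ centralizer (V : Set G) := by
      by_cases hb : ⁅D, V⁆ = ⊥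
      · rw [hb]; exact bot_le
      have hlt2 : ⁅⁅D, V⁆, V⁆ < ⁅D, V⁆ :=
        commutator_lt_of_isPGroup ⁅D, V⁆ V (hDp.to_le hlt.le) hV
          (Subgroup.normalizer_commutator_ge_right D V) hb
      -- orders
      have c1 : Nat.card (⁅D, V⁆ : Subgroup G) ∣ q ^ 2 := hDc ▸ Subgroup.card_dvd_of_le hlt.le
      have c2 : Nat.card (⁅D, V⁆ : Subgroup G) < q ^ 2 := by
        rw [← hDc]
        exact Set.ncard_lt_ncard (SetLike.coe_ssubset_coe.mpr hlt) (Set.toFinite _)
      obtain ⟨k, hk, hk'⟩ := (Nat.dvd_prime_pow hq).mp c1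
      have hk2 : k < 2 := by
        rw [hk'] at c2
        exact (Nat.pow_lt_pow_iff_right hq.one_lt).mp c2
      have c3 : Nat.card (⁅D, V⁆ : Subgroup G) ∣ q := by
        rw [hk']
        interval_cases k <;> simp
      have c4 : Nat.card (⁅⁅D, V⁆, V⁆ : Subgroup G) ∣ q :=
        (Subgroup.card_dvd_of_le hlt2.le).trans c3
      have c5 : Nat.card (⁅⁅D, V⁆, V⁆ : Subgroup G) < Nat.card (⁅D, V⁆ : Subgroup G) :=
        Set.ncard_lt_ncard (SetLike.coe_ssubset_coe.mpr hlt2) (Set.toFinite _)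
      have c6 : Nat.card (⁅⁅D, V⁆, V⁆ : Subgroup G) = 1 := by
        rcases (Nat.dvd_prime hq).mp c4 with h | h
        · exact h
        · have := Nat.le_of_dvd hq.pos c3
          omega
      have c7 : ⁅⁅D, V⁆, V⁆ = ⊥ := Subgroup.card_eq_one.mp c6
      exact Subgroup.commutator_eq_bot_iff_le_centralizer.mp c7
    intro d hd
    refine ⟨hDV hd, fun v hv => ⟨?_, hle (Subgroup.commutator_mem_commutator hd hv)⟩⟩
    exact hDV (hlt.le (Subgroup.commutator_mem_commutator hd hv))
  · obtain ⟨D, hDZ, _, hD, hDc⟩ :=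
      Cfsg.Agent.Lib.Helper58.BG9.exists_normal_sq hq2 (hV.to_le inf_le_left) hcyc
    refine ⟨V ⊓ centralizer (V : Set G), D, hDZ, inf_le_left,
      normalizer_le_normalizer_inf_centralizer V, hD, hDc, fun B hBV _ w hw => ?_⟩
    have : B ⊓ centralizer ({w} : Set G) = B := by
      apply inf_eq_left.mpr
      intro b hb
      rw [mem_centralizer_singleton_iff]
      exact ((mem_centralizer_iff.mp hw.2) b (hBV hb))
    rw [this]
    exact Nat.le_mul_of_pos_left _ hq.pos

end Cfsg.Agent.Lib.Helper11
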