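import Mathlib

set_option autoImplicit false

namespace Cfsg.Agent.Lib.Helper11.PGB

/-- AR4 : arithmetic -/
theorem arith4 {N r X : ℕ} (hN : Odd N) (hN3 : 3 ≤ N) (hr : r.Prime) (hr2 : r ≠ 2) (hr3 : r ≠ 3)
    (hX : X = N ^ 2 + N ∨ X = N ^ 2 - N) (h4 : 4 ∣ X - 2) (hrX : r ∣ X - 2) (hrN : r ∣ N ^ 2 - 1) :
    4 * r ∣ N - 1 ∨ 4 * r ∣ N + 1 := by
  obtain ⟨m, rfl⟩ := hN
  have hm : 1 ≤ m := by omega
  have hr2' : ¬ r ∣ 2 := fun h => hr2 ((Nat.prime_dvd_prime_iff_eq hr Nat.prime_two).mp h)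
  have hr4 : ¬ r ∣ 4 := by
    intro h
    have : r ∣ 2 ^ 2 := by norm_num; exact h
    exact hr2' (hr.dvd_of_dvd_pow this)
  have hcop : Nat.Coprime 2 r := by
    rw [Nat.coprime_comm]
    exact (Nat.Prime.coprime_iff_not_dvd hr).mpr hr2'
  have hN1 : (2 * m + 1) ^ 2 - 1 = 4 * (m * (m + 1)) := by
    have : (2 * m + 1) ^ 2 = 4 * (m * (m + 1)) + 1 := by ring
    omega
  rw [hN1] at hrN
  have hmm : r ∣ m ∨ r ∣ m + 1 := by
    rcases (Nat.Prime.dvd_mul hr).mp hrN with h | h
    · exact absurd h hr4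
    · exact (Nat.Prime.dvd_mul hr).mp h
  rcases hX with rfl | rfl
  · left
    have e : (2 * m + 1) ^ 2 + (2 * m + 1) - 2 = 2 * (m * (2 * m + 3)) := by
      have : (2 * m + 1) ^ 2 + (2 * m + 1) = 2 * (m * (2 * m + 3)) + 2 := by ring
      omega
    rw [e] at h4 hrX
    have hrm : r ∣ m := by
      rcases hmm with h | h
      · exact h
      · rcases (Nat.Prime.dvd_mul hr).mp hrX with h' | h'
        · exact absurd h' hr2'
        · rcases (Nat.Prime.dvd_mul hr).mp h' with h'' | h''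
          · exact h''
          · exfalso
            have : r ∣ (2 * m + 3) - 2 * (m + 1) := Nat.dvd_sub h'' (Dvd.dvd.mul_left h 2)
            have e1 : (2 * m + 3) - 2 * (m + 1) = 1 := by omega
            rw [e1] at this
            exact hr.one_lt.ne' (Nat.dvd_one.mp this)
    have h2m : 2 ∣ m := by
      have : 2 ∣ m * (2 * m + 3) := by omega
      rcases (Nat.Prime.dvd_mul Nat.prime_two).mp this with h | h
      · exact h
      · omega
    have h2r : 2 * r ∣ m := Nat.Coprime.mul_dvd_of_dvd_of_dvd hcop h2m hrm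
    obtain ⟨c, hc⟩ := h2r
    exact ⟨c, by rw [hc]; simp; ring⟩
  · right
    have e : (2 * m + 1) ^ 2 - (2 * m + 1) - 2 = 2 * ((2 * m - 1) * (m + 1)) := by
      obtain ⟨k, rfl⟩ : ∃ k, m = k + 1 := ⟨m - 1, by omega⟩
      have e1 : 2 * (k + 1) - 1 = 2 * k + 1 := by omega
      rw [e1]
      have : (2 * (k + 1) + 1) ^ 2 = 2 * ((2 * k + 1) * (k + 1 + 1)) + 2 + (2 * (k + 1) + 1) := by
        ring
      omega
    rw [e] at h4 hrX
    have hrm : r ∣ m + 1 := by
      rcases hmm with h | h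
      · rcases (Nat.Prime.dvd_mul hr).mp hrX with h' | h'
        · exact absurd h' hr2'
        · rcases (Nat.Prime.dvd_mul hr).mp h' with h'' | h''
          · exfalso
            have : r ∣ 2 * m - (2 * m - 1) := Nat.dvd_sub (Dvd.dvd.mul_left h 2) h''
            have e1 : 2 * m - (2 * m - 1) = 1 := by omega
            rw [e1] at this
            exact hr.one_lt.ne' (Nat.dvd_one.mp this)
          · exact h''
      · exact h
    have h2m : 2 ∣ m + 1 := by
      have : 2 ∣ (2 * m - 1) * (m + 1) := by omega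
      rcases (Nat.Prime.dvd_mul Nat.prime_two).mp this with h | h
      · omega
      · exact h
    have h2r : 2 * r ∣ m + 1 := Nat.Coprime.mul_dvd_of_dvd_of_dvd hcop h2m hrm
    obtain ⟨c, hc⟩ := h2r
    exact ⟨c, by
      have : 2 * m + 1 + 1 = 2 * (m + 1) := by ring
      rw [this, hc]; ring⟩

end Cfsg.Agent.Lib.Helper11.PGB
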