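import Mathlib
import Cfsg.Agent.Lib.Helper99.SPD.UV

set_option autoImplicit false

namespace Cfsg.Agent.Lib.Helper11.PGB

open Module LinearMap QuadraticMap Cfsg.Agent.Lib.Helper50.Quad Cfsg.Agent.Lib.Helper99.SPD

theorem lev_alpha_zero (q : ℕ) (hq : 1 ≤ q) {F : Type*} (α₀ : F → ℕ) (c : F) (h : α₀ c = 0)
    (j : ℕ) : alpha q q α₀ j c + q ^ j = q ^ (2 * j) := by
  obtain ⟨r, rfl⟩ : ∃ r, q = r + 1 := ⟨q - 1, by omega⟩
  induction j with
  | zero => simp [alpha, h]
  | succ j ih =>
    rw [alpha, Nat.add_sub_cancel]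
    have e : (r + 1) * alpha (r + 1) (r + 1) α₀ j c + r * ((r + 1) ^ (2 * j) * (r + 1)) +
        (r + 1) ^ (j + 1) =
        (r + 1) * (alpha (r + 1) (r + 1) α₀ j c + (r + 1) ^ j) +
          r * ((r + 1) ^ (2 * j) * (r + 1)) := by ring
    rw [e, ih]
    ring

/-- LEV : level sets of the standard form -/
theorem card_level_odd {F : Type*} [Field F] [Fintype F] (h2 : (2 : F) ≠ 0) (n : ℕ) (c : F)
    (hc : c ≠ 0) :
    Nat.card {v : Unit ⊕ (Fin n ⊕ Fin n) → F // Cfsg.quadFormOdd n F v = c} =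
      Fintype.card F ^ (2 * n) + Fintype.card F ^ n ∨
    Nat.card {v : Unit ⊕ (Fin n ⊕ Fin n) → F // Cfsg.quadFormOdd n F v = c} =
      Fintype.card F ^ (2 * n) - Fintype.card F ^ n := by
  have h1 := card_level (F := F) (fun t : F => t ^ 2) n c
  rw [Nat.card_eq_fintype_card (α := F)] at h1
  have hcongr : Nat.card {v : Unit ⊕ (Fin n ⊕ Fin n) → F // Cfsg.quadFormOdd n F v = c} =
      Nat.card {p : (Fin n → F × F) × F // ∑ i, (p.1 i).1 * (p.1 i).2 + p.2 ^ 2 = c} := by
    apply Nat.card_congr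
    let e : (Unit ⊕ (Fin n ⊕ Fin n) → F) ≃ (Fin n → F × F) × F :=
      { toFun := fun v => (fun i => (v (.inr (.inl i)), v (.inr (.inr i))), v (.inl ()))
        invFun := fun p =>
          Sum.elim (fun _ => p.2) (Sum.elim (fun i => (p.1 i).1) (fun i => (p.1 i).2))
        left_inv := fun v => by
          funext x
          rcases x with x | x | x <;> rfl
        right_inv := fun p => rfl }
    refine e.subtypeEquiv ?_
    intro v
    rw [Cfsg.quadFormOdd, add_comm]
    exact Iff.rfl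
  rw [hcongr, h1]
  rcases card_sq_eq h2 c hc with h | h
  · right
    have := lev_alpha_zero (Fintype.card F) Fintype.card_pos (fun c : F => Nat.card {s : F // s ^ 2 = c}) c h n
    omega
  · left
    exact alpha_one _ Fintype.card_pos (fun c : F => Nat.card {s : F // s ^ 2 = c}) c h n

end Cfsg.Agent.Lib.Helper11.PGB
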